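import Mathlib
import Cfsg.Agent.Suz.KSTwo
import Cfsg.Agent.Suz.Main
import Cfsg.Agent.Suz.Final
import Cfsg.Agent.Block.ZStar
import Cfsg.Agent.FGS.PrimePart
import Cfsg.Agent.S0065

/-! A simple doubly transitive group of odd degree whose point stabiliser is `U H` with `U` normal
and nilpotent and `H` of odd order fixing a second point: `U` acts regularly on the remaining points. -/

set_option autoImplicit false

namespace Cfsg.Agent.Suz.KS

open MulAction RankOne

theorem fix_dichotomy {M α : Type*} [Group M] [MulAction M α] (S : Set α) [Finite S] {z : M}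
    (hS : ∀ e, z • e ∈ S ↔ e ∈ S) {p k : ℕ} (hp : p.Prime) (hz : z ^ p ^ k = 1) :
    (¬ p ∣ Nat.card S → ∃ e ∈ S, z • e = e) ∧
      (p ∣ Nat.card S → ∀ e ∈ S, z • e = e → ∃ e' ∈ S, z • e' = e' ∧ e' ≠ e) := by
  classical
  have : Fact p.Prime := ⟨hp⟩
  have := Fintype.ofFinite S
  have hS' : ∀ e, toPermHom M α z e ∈ S ↔ e ∈ S := hS
  have h1 : ((toPermHom M α z).subtypePerm (p := fun e => e ∈ S) hS') ^ p ^ k = 1 := by
    rw [Equiv.Perm.subtypePerm_pow]
    ext e
    change (toPermHom M α z ^ p ^ k) e = e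
    rw [← map_pow, hz, map_one, Equiv.Perm.one_apply]
  rw [Nat.card_eq_fintype_card]
  refine ⟨fun h => ?_, fun h e he hze => ?_⟩
  · obtain ⟨e, he⟩ := Equiv.Perm.exists_fixed_point_of_prime h h1
    exact ⟨e, e.2, congrArg Subtype.val he⟩
  · obtain ⟨e', he', hne⟩ := Equiv.Perm.exists_fixed_point_of_prime' h h1 (a := ⟨e, he⟩)
      (Subtype.ext hze)
    exact ⟨e', e'.2, congrArg Subtype.val he', fun h => hne (Subtype.ext h)⟩

theorem exists_central_prime {G : Type*} [Group G] [Finite G] {X : Subgroup G}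
    (hX : Group.IsNilpotent X) {p : ℕ} (hp : p.Prime) (hd : p ∣ Nat.card X) :
    ∃ z ∈ X, z ≠ 1 ∧ z ^ p = 1 ∧ ∀ u ∈ X, z * u = u * z := by
  have : Fact p.Prime := ⟨hp⟩
  have hne : pCore p X ≠ ⊥ := by
    intro h
    have h1 := Grp.not_dvd_index_pCore_of_isNilpotent (G := X) p
    rw [h, Subgroup.index_bot] at h1
    exact h1 hd
  obtain ⟨⟨z, hzO, hz⟩, hz1⟩ := Subgroup.ne_bot_iff_exists_ne_one.1 (S0065.result _ hne)
  have hz1' : z ≠ 1 := fun h => hz1 (Subtype.ext h)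
  have h1 := (Grp.pCore_isPGroup p X).dvd_orderOf (g := ⟨z, hzO⟩)
    (fun h => hz1' (congrArg Subtype.val h))
  rw [Subgroup.orderOf_mk] at h1
  have h2 := orderOf_pow_orderOf_div (orderOf_pos z).ne' h1
  refine ⟨(z ^ (orderOf z / p) : X), (z ^ (orderOf z / p)).2, fun e => ?_, ?_, fun u hu => ?_⟩
  · rw [show z ^ (orderOf z / p) = 1 from Subtype.ext e, orderOf_one] at h2
    exact hp.one_lt.ne h2
  · have h3 := pow_orderOf_eq_one (z ^ (orderOf z / p))
    rw [h2] at h3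
    exact congrArg Subtype.val h3
  · exact congrArg Subtype.val
      (Subgroup.mem_center_iff.1 (Subgroup.pow_mem _ hz (orderOf z / p)) ⟨u, hu⟩).symm

variable {G Ω : Type*} [Group G] [MulAction G Ω] [Finite G]

namespace Fam

variable {U : Ω → Subgroup G} (h : Fam U)
include h

theorem card_U (c d : Ω) : Nat.card (U c) = Nat.card (U d) := by
  have key : ∀ c d : Ω, Nat.card (U c) ≤ Nat.card (U d) := by
    intro c d
    obtain ⟨g, rfl⟩ := h.trans c d
    exact Nat.card_le_card_of_injective (fun z : U c => (⟨_, h.conj g c z z.2⟩ : U (g • c)))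
      (fun z z' e => Subtype.ext (by simpa using congrArg Subtype.val e))
  exact le_antisymm (key c d) (key d c)

omit [Finite G] in
theorem conj'' {g : G} {c d : Ω} (e : g • c = d) {u : G} (hu : u ∈ U c) : g * u * g⁻¹ ∈ U d :=
  e ▸ h.conj g c u hu

theorem symm_of_nilpotent (hn : ∀ c, Group.IsNilpotent (U c)) {c d : Ω} {y : G} (hy : y ∈ U c)
    (hd : y • d = d) : y ∈ U d := by
  have : Finite Ω := Finite.of_surjective (fun g : G => g • c) (fun e => h.trans c e)
  refine FGS.mem_of_forall_primePow_part fun p hp y' hy' ⟨k, hk⟩ => ?_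
  have hy'c : y' ∈ U c := (Subgroup.zpowers_le.mpr hy) hy'
  have hy'd : y' • d = d := (Subgroup.zpowers_le.mpr (show y ∈ stabilizer G d from hd)) hy'
  clear hy' hy hd y
  by_contra hnot
  have hy1 : y' ≠ 1 := by rintro rfl; exact hnot (one_mem _)
  have hpd : p ∣ Nat.card (U c) := by
    refine dvd_trans ?_ (Subgroup.orderOf_dvd_natCard _ hy'c)
    obtain ⟨i, -, hi⟩ := (Nat.dvd_prime_pow hp).mp (orderOf_dvd_of_pow_eq_one hk)
    rcases i with _ | i
    · exact absurd (orderOf_eq_one_iff.mp hi) hy1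
    · rw [hi]; exact dvd_pow_self p (Nat.succ_ne_zero i)
  have hΓ : ∀ z : G, z * y' = y' * z → ∀ e, z • e ∈ {e | y' ∈ U e} ↔ e ∈ {e | y' ∈ U e} := by
    intro z hz e
    constructor
    · intro he
      have := h.conj' rfl he
      rwa [mul_assoc, ← hz, inv_mul_cancel_left] at this
    · intro he
      have := h.conj z e y' he
      rwa [hz, mul_inv_cancel_right] at this
  by_cases hdvd : p ∣ Nat.card {e | y' ∈ U e}
  · obtain ⟨z, hz, hz1, hzp, hzc⟩ := exists_central_prime (hn c) hp hpd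
    obtain ⟨e, -, he, hec⟩ := (fix_dichotomy _ (hΓ z (hzc y' hy'c)) (k := 1) hp (by rw [pow_one, hzp])).2
      hdvd c hy'c (h.fix c z hz)
    exact hec (h.cent_fix hz hzc hz1 he)
  · obtain ⟨z₀, hz₀, hz₀1, hz₀p, hz₀c⟩ := exists_central_prime (hn d) hp (h.card_U c d ▸ hpd)
    let Zp : Subgroup G :=
      { carrier := {z | z ∈ U d ∧ z ^ p = 1 ∧ ∀ u ∈ U d, z * u = u * z}
        one_mem' := ⟨one_mem _, one_pow _, fun u _ => by simp⟩
        mul_mem' := by
          rintro y z ⟨hy, hy2, hyc⟩ ⟨hz, hz2, hzc⟩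
          refine ⟨mul_mem hy hz, ?_, fun u hu => ?_⟩
          · rw [Commute.mul_pow (hyc z hz), hy2, hz2, mul_one]
          · rw [mul_assoc, hzc u hu, ← mul_assoc, hyc u hu, mul_assoc]
        inv_mem' := by
          rintro z ⟨hz, hz2, hzc⟩
          exact ⟨inv_mem hz, by rw [inv_pow, hz2, inv_one], fun u hu => (Commute.inv_left (hzc u hu)).eq⟩ }
    have hZp : ∀ g : G, g • d = d → ∀ z ∈ Zp, g * z * g⁻¹ ∈ Zp := by
      rintro g hg z ⟨hz, hz2, hzc⟩
      refine ⟨by simpa only [hg] using h.conj g d z hz, by rw [conj_pow, hz2]; group, fun u hu => ?_⟩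
      calc g * z * g⁻¹ * u = g * (z * (g⁻¹ * u * g)) * g⁻¹ := by group
        _ = _ := by rw [hzc _ (h.conj' hg hu)]; group
    have hp2 : p ∣ Nat.card (Zp : Set G) := by
      have : Fact p.Prime := ⟨hp⟩
      rw [← orderOf_eq_prime hz₀p hz₀1]
      exact Subgroup.orderOf_dvd_natCard Zp ⟨hz₀, hz₀p, hz₀c⟩
    obtain ⟨z, hz, hzy, hz1⟩ := (fix_dichotomy (Zp : Set G) (z := ConjAct.toConjAct y') (fun e => by
      rw [ConjAct.toConjAct_smul]
      refine ⟨fun he => ?_, hZp y' hy'd e⟩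
      simpa [mul_assoc] using hZp y'⁻¹ (inv_smul_eq_iff.mpr hy'd.symm) _ he) (k := k) hp
      (by rw [← map_pow, hk, map_one])).2 hp2 1 (one_mem _) (smul_one _)
    rw [ConjAct.toConjAct_smul, mul_inv_eq_iff_eq_mul] at hzy
    obtain ⟨e, he, hze⟩ := (fix_dichotomy _ (hΓ z hzy.symm) (k := 1) hp (by rw [pow_one, hz.2.1])).1 hdvd
    exact hnot (h.cent_fix hz.1 hz.2.2 hz1 hze ▸ he)

theorem exists_two_Z (hs : IsSimpleGroup G) {a : Ω} {z : G} (hz : z ∈ Zc (U a)) (hz1 : z ≠ 1)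
    {b : Ω} (hab : a ≠ b) : ∃ z' ∈ Zc (U a), z' ≠ 1 ∧ z' ≠ z := by
  by_contra hne
  push Not at hne
  have hiso : IsIsolatedInvolution z := ⟨orderOf_eq_prime (by rw [sq, hz.2.1]) hz1, fun g hg => by
    have h1 := h.Z_conj g hz
    have h2 := h.Z_fix h1 (conj_ne_one hz1 g) (h.fix_of_comm hz hz1 hg.symm.eq)
    rw [← h2] at h1
    exact hne _ h1 (conj_ne_one hz1 g)⟩
  rcases (inferInstance : (pPrimeCore 2 G).Normal).eq_bot_or_eq_top with e | e
  · obtain ⟨g, rfl⟩ := h.trans a b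
    have := Block.zstar hiso g
    rw [e, Subgroup.mem_bot, mul_inv_eq_one, mul_inv_eq_iff_eq_mul] at this
    exact hab (h.fix_of_comm hz hz1 this.symm).symm
  · have := Inv.odd_card_pPrimeCore_two G
    rw [e] at this
    exact Nat.not_even_iff_odd.mpr this (even_of_invol (Subgroup.mem_top z) hz1 hz.2.1)

/-- The fixed points of a subgroup as a set invariant under its normaliser. -/
def fixN (Ω : Type*) [MulAction G Ω] (X : Subgroup G) : SubMulAction (Subgroup.normalizer (X : Set G)) Ω where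
  carrier := {c | ∀ y ∈ X, y • c = c}
  smul_mem' g c hc y hy := by
    have := hc _ ((Subgroup.mem_normalizer_iff''.mp g.2 y).mp hy)
    change y • (g : G) • c = (g : G) • c
    rwa [mul_smul, mul_smul, inv_smul_eq_iff] at this

theorem isPGroup_of_nilpotent (hs : IsSimpleGroup G) (hn : ∀ c, Group.IsNilpotent (U c)) {a : Ω}
    {t : G} (ht : t * t = 1) (hta : t • a ≠ a) (H₀ : Subgroup G) (hH : H₀ ≤ D a t)
    (hodd : Odd (Nat.card H₀)) (hB : ∀ g : G, g • a = a → ∃ u ∈ U a, ∃ k ∈ H₀, g = u * k)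
    {z : G} (hz : z ∈ Zc (U a)) (hz1 : z ≠ 1) : IsPGroup 2 (U a) := by
  have htt : t • t • a = a := by rw [← mul_smul, ht, one_smul]
  let X := U a ⊓ U (t • a)
  let M := Subgroup.normalizer (X : Set G)
  have hM : ∀ g : G, (∀ y ∈ X, g * y * g⁻¹ ∈ X) → g ∈ M := fun g hg =>
    Subgroup.mem_normalizer_fintype hg
  have hDM : ∀ d ∈ D a t, d ∈ M := fun d hd => hM d fun y hy =>
    ⟨h.conj'' hd.1 hy.1, h.conj'' hd.2 hy.2⟩
  have htM : t ∈ M := hM t fun y hy =>
    ⟨h.conj'' htt hy.2, h.conj t a y hy.1⟩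
  have hcM : ∀ z ∈ U a, (∀ u ∈ U a, z * u = u * z) → z ∈ M := fun z _ hc => hM z fun y hy => by
    rwa [hc y hy.1, mul_inv_cancel_right]
  have ha : a ∈ fixN Ω X := fun y hy => h.fix a y hy.1
  let a' : fixN Ω X := ⟨a, ha⟩
  let t' : M := ⟨t, htM⟩
  letI := quotAction M (fixN Ω X)
  let f := QuotientGroup.mk' (toPermHom M (fixN Ω X)).ker
  have hsurj : Function.Surjective f := QuotientGroup.mk'_surjective _
  have hc : ∀ (g : M) (c : fixN Ω X), f g • c = g • c := quotAction_smul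
  have hX1 : ∀ g : M, (g : G) ∈ X → f g = 1 := fun g hg =>
    (QuotientGroup.eq_one_iff g).mpr (Equiv.ext fun c => Subtype.ext (c.2 g hg))
  have hb : ∀ g g' : M, f g = f g' → (g : G) • t • a = (g' : G) • t • a := fun g g' e => by
    have : f g • (t' • a') = f g' • (t' • a') := by rw [e]
    rw [hc, hc] at this
    exact congrArg Subtype.val this
  have hS : IsRankOneSetup _ (fixN Ω X) a' (f t') (((U a).subgroupOf M).map f) := by
    refine setup_of_regular (by rw [← map_mul, show t' * t' = 1 from Subtype.ext ht, map_one]) ?_ ?_ ?_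
      ?_ ?_ ?_ ?_
    · rw [hc]; exact fun e => hta (congrArg Subtype.val e)
    · rintro _ ⟨u, hu, rfl⟩
      rw [mem_stabilizer_iff, hc]
      exact Subtype.ext (h.fix a u hu)
    · rintro g hg _ ⟨u, hu, rfl⟩
      obtain ⟨g, rfl⟩ := hsurj g
      rw [mem_stabilizer_iff, hc] at hg
      have hg' : (g : G) • a = a := congrArg Subtype.val hg
      exact ⟨g * u * g⁻¹, h.conj'' hg' hu, by simp⟩
    · intro c hca
      have hca' : (c : Ω) ≠ a := fun e => hca (Subtype.ext e)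
      obtain ⟨u, hu, e⟩ := h.tr a (t • a) c hta hca'
      have huM : u⁻¹ ∈ M := hM _ fun y hy => by
        rw [inv_inv]
        exact ⟨h.conj' (h.fix a u hu) hy.1,
          h.conj' e (h.symm_of_nilpotent hn hy.1 (c.2 y hy))⟩
      refine ⟨f ⟨u, inv_mem_iff.mp huM⟩, ⟨_, hu, rfl⟩, ?_⟩
      rw [hc, hc]
      exact Subtype.ext e
    · rintro _ ⟨u, hu, rfl⟩ e
      rw [hc, hc] at e
      exact hX1 u ⟨hu, h.symm_of_nilpotent hn hu (congrArg Subtype.val e)⟩
    · refine even_of_invol (s := f ⟨z, hcM z hz.1 hz.2.2⟩) ⟨_, hz.1, rfl⟩ (fun e => ?_) ?_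
      · exact hz1 (h.Z_eq_one hz hta (by simpa using hb _ 1 (e.trans (map_one f).symm)))
      · rw [← map_mul]
        exact (congrArg f (Subtype.ext hz.2.1)).trans (map_one f)
    · rw [D_map_of_smul hsurj hc]
      have hle : (D a' t').map f ≤ (H₀.subgroupOf M).map f := by
        rintro _ ⟨d, hd, rfl⟩
        have hd1 : (d : G) • a = a := congrArg Subtype.val hd.1
        have hd2 : (d : G) • t • a = t • a := congrArg Subtype.val hd.2
        obtain ⟨u, hu, k, hk, e⟩ := hB d hd1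
        have hkM := hDM k (hH hk)
        refine ⟨⟨k, hkM⟩, hk, ?_⟩
        have h1 : (d * (⟨k, hkM⟩ : M)⁻¹ : M) = u := by
          change (d : G) * k⁻¹ = u
          rw [e, mul_inv_cancel_right]
        have h2 := hX1 (d * (⟨k, hkM⟩ : M)⁻¹) (by
          rw [h1]
          refine ⟨hu, h.symm_of_nilpotent hn hu ?_⟩
          rw [e, mul_smul, show k • t • a = t • a from (hH hk).2] at hd2
          exact hd2)
        rw [map_mul, map_inv, mul_inv_eq_one] at h2
        exact h2.symm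
      refine Odd.of_dvd_nat hodd ((Subgroup.card_dvd_of_le hle).trans
        ((Subgroup.card_map_dvd _ _).trans ?_))
      rw [← Subgroup.card_map_of_injective M.subtype_injective, Subgroup.subgroupOf_map_subtype]
      exact Subgroup.card_dvd_of_le inf_le_left
  have h2 : TwoRank (M ⧸ (toPermHom M (fixN Ω X)).ker) := by
    obtain ⟨z', hz', hz1', hne⟩ := h.exists_two_Z hs hz hz1 hta.symm
    refine ⟨f ⟨z, hcM z hz.1 hz.2.2⟩, f ⟨z', hcM z' hz'.1 hz'.2.2⟩, fun e => ?_, fun e => ?_,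
      fun e => ?_, ?_, ?_, ?_⟩
    · exact hz1 (h.Z_eq_one hz hta (by simpa using hb _ 1 (e.trans (map_one f).symm)))
    · exact hz1' (h.Z_eq_one hz' hta (by simpa using hb _ 1 (e.trans (map_one f).symm)))
    · exact hne (h.Z_smul_inj hz hz' hta (hb _ _ e)).symm
    · rw [← map_mul]
      exact (congrArg f (Subtype.ext hz.2.1)).trans (map_one f)
    · rw [← map_mul]
      exact (congrArg f (Subtype.ext hz'.2.1)).trans (map_one f)
    · rw [← map_mul, ← map_mul]
      exact congrArg f (Subtype.ext (hz.2.2 z' hz'.1))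
  have h3 := (trich hS h2).isPGroup
  have : Fact (Nat.Prime 2) := ⟨Nat.prime_two⟩
  refine IsPGroup.of_card (Nat.eq_prime_pow_of_unique_prime_dvd Nat.card_pos.ne' ?_)
  intro p hp hpd
  by_contra hp2
  obtain ⟨w, hw, hw1, hwp, hwc⟩ := exists_central_prime (hn a) hp hpd
  obtain ⟨k, hk⟩ := h3 ⟨f ⟨w, hcM w hw hwc⟩, _, hw, rfl⟩
  have hk' : f ⟨w, hcM w hw hwc⟩ ^ 2 ^ k = 1 := congrArg Subtype.val hk
  have hp' : f ⟨w, hcM w hw hwc⟩ ^ p = 1 := by
    rw [← map_pow]
    exact (congrArg f (Subtype.ext hwp)).trans (map_one f)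
  have h4 : f ⟨w, hcM w hw hwc⟩ = 1 := orderOf_eq_one_iff.mp (Nat.eq_one_of_dvd_coprimes
    (Nat.Coprime.pow_right k ((Nat.coprime_primes hp Nat.prime_two).mpr hp2))
    (orderOf_dvd_of_pow_eq_one hp') (orderOf_dvd_of_pow_eq_one hk'))
  exact hta (h.cent_fix hw hwc hw1 (by simpa using hb _ 1 (h4.trans (map_one f).symm)))

end Fam

theorem pow_mul_mem {U : Subgroup G} {u k : G} (hu : u ∈ U) (hk : ∀ v ∈ U, k * v * k⁻¹ ∈ U) (n : ℕ) :
    (u * k) ^ n * (k ^ n)⁻¹ ∈ U := by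
  induction n with
  | zero => simp
  | succ n ih =>
    have : (u * k) ^ (n + 1) * (k ^ (n + 1))⁻¹ = u * (k * ((u * k) ^ n * (k ^ n)⁻¹) * k⁻¹) := by
      rw [pow_succ', pow_succ']; group
    rw [this]
    exact mul_mem hu (hk _ ih)

/-- The Kantor–Seitz reduction in the case of odd degree and odd complement. -/
theorem setup_of_nilpotent (hs : IsSimpleGroup G) (h2t : IsMultiplyPretransitive G Ω 2) {a : Ω} {t : G}
    (ht : t * t = 1) (hta : t • a ≠ a) (U₀ H₀ : Subgroup G) (hU : U₀ ≤ stabilizer G a)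
    (hUn : ∀ g ∈ stabilizer G a, ∀ u ∈ U₀, g * u * g⁻¹ ∈ U₀) (hnil : Group.IsNilpotent U₀)
    (hH : H₀ ≤ D a t) (hodd : Odd (Nat.card H₀))
    (hB : ∀ g : G, g • a = a → ∃ u ∈ U₀, ∃ k ∈ H₀, g = u * k) (hΩ : Odd (stabilizer G a).index) :
    IsRankOneSetup G Ω a t U₀ := by
  have h2 : ∀ {b₁ b₂ c₁ c₂ : Ω}, b₁ ≠ b₂ → c₁ ≠ c₂ → ∃ g : G, g • b₁ = c₁ ∧ g • b₂ = c₂ :=
    fun hb hc => MulAction.is_two_pretransitive_iff.mp h2t hb hc
  have htr : ∀ c : Ω, c ≠ a → ∃ u ∈ U₀, u • t • a = c := by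
    intro c hc
    obtain ⟨g, hg1, hg2⟩ := h2 hta.symm hc.symm
    obtain ⟨u, hu, k, hk, rfl⟩ := hB g hg1
    exact ⟨u, hu, by rw [← hg2, mul_smul, show k • t • a = t • a from (hH hk).2]⟩
  have htrans : ∀ c : Ω, ∃ g : G, g • a = c := by
    intro c
    by_cases hc : c = a
    · exact ⟨1, by simp [hc]⟩
    · obtain ⟨u, -, e⟩ := htr c hc
      exact ⟨u * t, by rw [mul_smul, e]⟩
  choose γ hγ using htrans
  let U : Ω → Subgroup G := fun c => U₀.comap (MulAut.conj (γ c)⁻¹).toMonoidHom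
  have hmem : ∀ {g : G} {c : Ω}, g • a = c → ∀ {y : G}, y ∈ U c ↔ g⁻¹ * y * g ∈ U₀ := by
    intro g c hg y
    have e : ∀ g g' : G, g • a = g' • a → g⁻¹ * y * g ∈ U₀ → g'⁻¹ * y * g' ∈ U₀ := by
      intro g g' e hy
      have := hUn (g'⁻¹ * g) (by rw [mem_stabilizer_iff, mul_smul, e, inv_smul_smul]) _ hy
      simpa [mul_assoc] using this
    change (γ c)⁻¹ * y * (γ c)⁻¹⁻¹ ∈ U₀ ↔ _
    rw [inv_inv]
    exact ⟨e _ _ ((hγ c).trans hg.symm), e _ _ (hg.trans (hγ c).symm)⟩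
  have hUa : U a = U₀ := by
    ext y
    simpa using hmem (one_smul G a) (y := y)
  have hF : Fam U := by
    refine ⟨fun g hg => ?_, fun c u hu => ?_, fun g c u hu => ?_, fun c d e hd he => ?_,
      fun c d => ⟨γ d * (γ c)⁻¹, by rw [mul_smul, inv_smul_eq_iff.mpr (hγ c).symm, hγ]⟩⟩
    · rcases (inferInstance : (toPermHom G Ω).ker.Normal).eq_bot_or_eq_top with h | h
      · rw [← Subgroup.mem_bot, ← h]
        exact Equiv.ext hg
      · have : t ∈ (toPermHom G Ω).ker := h ▸ Subgroup.mem_top t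
        exact absurd (Equiv.congr_fun this a) hta
    · have : ((γ c)⁻¹ * u * γ c) • a = a := hU ((hmem (hγ c)).mp hu)
      rwa [mul_smul, mul_smul, inv_smul_eq_iff, hγ] at this
    · refine (hmem (g := g * γ c) (by rw [mul_smul, hγ])).mpr ?_
      simpa [mul_assoc] using (hmem (hγ c)).mp hu
    · have k : ∀ d, d ≠ c → (γ c)⁻¹ • d ≠ a := fun d hd e => hd (by rw [← hγ c, ← e, smul_inv_smul])
      obtain ⟨u, hu, e1⟩ := htr _ (k d hd)
      obtain ⟨u', hu', e2⟩ := htr _ (k e he)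
      refine ⟨γ c * (u' * u⁻¹) * (γ c)⁻¹, (hmem (hγ c)).mpr (by
        simpa [mul_assoc] using mul_mem hu' (inv_mem hu)), ?_⟩
      rw [mul_smul, ← e1, mul_smul, mul_smul, inv_smul_smul, e2, smul_inv_smul]
  have hn : ∀ c, Group.IsNilpotent (U c) := fun c =>
    Group.nilpotent_of_mulEquiv (Subgroup.equivMapOfInjective (U c) (MulAut.conj (γ c)⁻¹).toMonoidHom
      (MulAut.conj _).injective).symm (_h := by
        rw [Subgroup.map_comap_eq_self_of_surjective (MulAut.conj _).surjective]; exact hnil)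
  have hev : Even (Nat.card U₀) := by
    have : Finite Ω := Finite.of_surjective (fun g : G => g • a) (fun c => ⟨γ c, hγ c⟩)
    have : IsPretransitive G Ω := ⟨hF.trans⟩
    rw [index_stabilizer_of_transitive, ← Nat.card_univ,
      ← Fam2.card_sub_point (s := Set.univ) (d := a) trivial, Nat.odd_add_one, Nat.not_odd_iff_even] at hΩ
    have e : Nat.card {c : Ω // c ∈ Set.univ ∧ c ≠ a} = Nat.card (orbit U₀ (t • a)) := by
      refine Nat.card_congr (Equiv.subtypeEquivRight fun c => ⟨fun hc => ?_, ?_⟩)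
      · obtain ⟨u, hu, e⟩ := htr c hc.2
        exact ⟨⟨u, hu⟩, e⟩
      · rintro ⟨u, rfl⟩
        exact ⟨trivial, hF.smul_ne (hU u.2) hta⟩
    rw [e, Nat.card_coe_set_eq, ← index_stabilizer] at hΩ
    exact even_iff_two_dvd.mpr (hΩ.two_dvd.trans (Subgroup.index_dvd_card _))
  obtain ⟨z, hz, hz1, hz2, hzc⟩ := exists_central_prime hnil Nat.prime_two hev.two_dvd
  have hzZ : z ∈ Zc (U a) := hUa ▸ ⟨hz, by rwa [← pow_two], hzc⟩
  have hp : IsPGroup 2 U₀ := hUa ▸ hF.isPGroup_of_nilpotent hs hn ht hta H₀ hH hodd (hUa ▸ hB) hzZ hz1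
  have hF2 : Fam2 U := by
    refine ⟨hF, fun c => hp.comap_of_injective _ (MulAut.conj _).injective, ?_, fun c => ?_⟩
    · rintro c y hy ⟨k, hk⟩
      rw [hmem (hγ c)]
      obtain ⟨u, hu, l, hl, e⟩ := hB ((γ c)⁻¹ * y * γ c) (by
        rw [mul_smul, mul_smul, hγ, hy, inv_smul_eq_iff, hγ])
      have h1 := pow_mul_mem hu (hUn l (hH hl).1) (orderOf l)
      rw [pow_orderOf_eq_one, inv_one, mul_one, ← e] at h1
      have h3 : ((γ c)⁻¹ * y * γ c) ^ 2 ^ k = 1 := by
        have := conj_pow (a := (γ c)⁻¹) (b := y) (i := 2 ^ k)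
        rw [inv_inv] at this
        rw [this, hk]; group
      obtain ⟨m, hm⟩ := exists_pow_eq_self_of_coprime (x := (γ c)⁻¹ * y * γ c) (n := orderOf l)
        (Nat.Coprime.coprime_dvd_right (orderOf_dvd_of_pow_eq_one h3)
          (Nat.Coprime.pow_right k (Nat.coprime_two_right.mpr (odd_orderOf_of_mem hodd hl))))
      exact hm ▸ pow_mem h1 m
    · rw [hF.card_Z c a]
      obtain ⟨z', hz', hz1', hne⟩ := hF.exists_two_Z hs hzZ hz1 hta.symm
      have := Fintype.ofFinite (Zc (U a))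
      rw [Nat.card_eq_fintype_card, Fintype.two_lt_card_iff]
      exact ⟨1, ⟨z, hzZ⟩, ⟨z', hz'⟩, fun e => hz1 (congrArg Subtype.val e).symm,
        fun e => hz1' (congrArg Subtype.val e).symm, fun e => hne (congrArg Subtype.val e).symm⟩
  have hind : Odd U₀.index := by
    rw [← Subgroup.relIndex_mul_index hU]
    refine Odd.mul (Odd.of_dvd_nat hodd ?_) hΩ
    have : (U₀.subgroupOf (stabilizer G a)).Normal := ⟨fun u hu g => hUn g g.2 u hu⟩
    refine Subgroup.card_dvd_of_surjective ((QuotientGroup.mk' (U₀.subgroupOf (stabilizer G a))).comp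
      (Subgroup.inclusion (hH.trans inf_le_left))) fun g => ?_
    obtain ⟨g, rfl⟩ := QuotientGroup.mk_surjective g
    obtain ⟨u, hu, k, hk, e⟩ := hB g g.2
    refine ⟨⟨k, hk⟩, QuotientGroup.eq.mpr ?_⟩
    change k⁻¹ * g ∈ U₀
    rw [e, ← mul_assoc]
    simpa using hUn k⁻¹ (inv_mem (hH hk).1) u hu
  have hreg : ∀ q ∈ U₀, q • t • a = t • a → q = 1 := fun q hq e =>
    hF2.regular hs (hUa ▸ hind) hta.symm (hUa ▸ hq) e
  refine setup_of_regular ht hta hU hUn htr hreg hev (Odd.of_dvd_nat hodd (Subgroup.card_dvd_of_le ?_))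
  intro d hd
  obtain ⟨u, hu, k, hk, rfl⟩ := hB d hd.1
  have h3 : (u * k) • t • a = t • a := hd.2
  rw [mul_smul, show k • t • a = t • a from (hH hk).2] at h3
  rwa [hreg u hu h3, one_mul]

end Cfsg.Agent.Suz.KS
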